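import Mathlib
import Cfsg.Agent.Lib.Helper69.APQ.Defs
import Cfsg.Agent.S0699

/-!
# APQ (S4150), package [NSOLV]

A `3`-transitive group of odd degree at least `5` is not solvable: the last non-trivial term
of its derived series would be an abelian `3`-transitive (Wagner, S0699) group.
-/

set_option autoImplicit false

namespace Cfsg.Agent.Lib.Helper97.APQ

open Equiv Cfsg.Agent.Lib.Helper69.APQ
open scoped commutatorElement

universe u

/-- An abelian group cannot act `2`-transitively on at least three points. -/
theorem not_two_trans_of_comm {N β : Type*} [Group N] [MulAction N β]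
    (hcomm : ∀ g h : N, g * h = h * g) (a b c : β) (hab : a ≠ b) (hac : a ≠ c) (hbc : b ≠ c)
    (h2 : MulAction.IsMultiplyPretransitive N β 2) : False := by
  rw [MulAction.is_two_pretransitive_iff] at h2
  obtain ⟨g, hg1, hg2⟩ := h2 hab hac
  obtain ⟨h, hh1, hh2⟩ := h2 hab hab.symm
  have h1 : (g * h) • a = c := by rw [mul_smul, hh1, hg2]
  have h3 : (h * g) • a = b := by rw [mul_smul, hg1, hh1]
  rw [hcomm g h, h3] at h1
  exact hbc h1

theorem pkgNSolv : PkgNSolv.{u} := by
  intro β _ _ G hodd h5 h3 hsolv
  classical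
  have hex : ∃ n, derivedSeries G n = ⊥ := hsolv.solvable
  have hk1 : derivedSeries G (Nat.find hex) = ⊥ := Nat.find_spec hex
  -- three distinct points
  have hcard : 2 < Fintype.card β := by omega
  obtain ⟨a, b, c, hab, hac, hbc⟩ := Fintype.two_lt_card_iff.mp hcard
  have hle : (3 : ℕ∞) ≤ ENat.card β := by
    rw [ENat.card_eq_coe_fintype_card]
    exact_mod_cast (by omega : 3 ≤ Fintype.card β)
  have hk0 : Nat.find hex ≠ 0 := by
    intro h0
    rw [h0, derivedSeries_zero] at hk1
    have h2 : MulAction.IsMultiplyPretransitive G β 2 :=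
      MulAction.isMultiplyPretransitive_of_le (n := 3) (by norm_num) (by simpa using hle)
    refine not_two_trans_of_comm (N := G) (fun g h => ?_) a b c hab hac hbc h2
    have hg : g ∈ (⊤ : Subgroup G) := Subgroup.mem_top g
    have hh : h ∈ (⊤ : Subgroup G) := Subgroup.mem_top h
    rw [hk1, Subgroup.mem_bot] at hg hh
    rw [hg, hh]
  obtain ⟨j, hj⟩ : ∃ j, Nat.find hex = j + 1 := Nat.exists_eq_succ_of_ne_zero hk0
  have hNne : derivedSeries G j ≠ ⊥ := fun h => Nat.find_min hex (by omega : j < Nat.find hex) h
  have hcomm : ⁅derivedSeries G j, derivedSeries G j⁆ = ⊥ := by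
    rw [← derivedSeries_succ, ← hj]; exact hk1
  have : (derivedSeries G j).Normal := derivedSeries_normal G j
  have hN3 : MulAction.IsMultiplyPretransitive (derivedSeries G j) β 3 :=
    Cfsg.Agent.S0699.result G hodd h5 h3 (derivedSeries G j) hNne
  have hN2 : MulAction.IsMultiplyPretransitive (derivedSeries G j) β 2 :=
    MulAction.isMultiplyPretransitive_of_le (n := 3) (by norm_num) (by simpa using hle)
  refine not_two_trans_of_comm (N := derivedSeries G j) (fun g h => ?_) a b c hab hac hbc hN2
  have h4 : ⁅(g : G), (h : G)⁆ ∈ ⁅derivedSeries G j, derivedSeries G j⁆ :=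
    Subgroup.commutator_mem_commutator g.2 h.2
  rw [hcomm, Subgroup.mem_bot, commutatorElement_eq_one_iff_mul_comm] at h4
  exact Subtype.ext h4

end Cfsg.Agent.Lib.Helper97.APQ
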