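import Mathlib
import Cfsg.Agent.Lib.Helper69.APQ.Defs

/-!
# APQ (S4150), package [PRIM]

A `q`-cycle `y` on fewer than `2q` points, together with an `x` all of whose orbits meet the
support of `y`, generates a primitive group.
-/

set_option autoImplicit false

namespace Cfsg.Agent.Lib.Helper97.APQ

open Equiv Cfsg.Agent.Lib.Helper69.APQ
open scoped Pointwise

universe u

theorem pkgPrim : PkgPrim.{u} := by
  intro β _ _ x y q hq hy hcard hxy
  classical
  set H : Subgroup (Perm β) := Subgroup.closure ({x, y} : Set (Perm β)) with hH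
  have hxH : x ∈ H := Subgroup.subset_closure (by simp)
  have hyH : y ∈ H := Subgroup.subset_closure (by simp)
  have hcyc : y.IsCycle := by
    rw [← Equiv.Perm.card_cycleType_eq_one, hy]; simp
  have hsupp : y.support.card = q := by
    have := Equiv.Perm.sum_cycleType y
    rw [hy] at this; simpa using this.symm
  have hord : orderOf y = q := by
    rw [← Equiv.Perm.lcm_cycleType, hy]; simp
  obtain ⟨c, hc⟩ : ∃ c, y c ≠ c := by
    have : y.support.Nonempty := by
      rw [← Finset.card_pos, hsupp]; exact hq.pos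
    obtain ⟨c, hc⟩ := this
    exact ⟨c, Equiv.Perm.mem_support.mp hc⟩
  -- transitivity
  have key : ∀ b : β, ∃ h : H, h • b = c := by
    intro b
    obtain ⟨k, hk⟩ : ∃ k : ℕ, y ((x ^ k) b) ≠ (x ^ k) b := by
      rcases hxy b with h | h
      · exact ⟨0, by simpa using h⟩
      · exact h
    obtain ⟨i, hi⟩ := hcyc.exists_pow_eq hk hc
    refine ⟨⟨y ^ i * x ^ k, H.mul_mem (H.pow_mem hyH i) (H.pow_mem hxH k)⟩, ?_⟩
    show (y ^ i * x ^ k) b = c
    simpa using hi
  have htrans : MulAction.IsPretransitive H β := by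
    refine ⟨fun a b => ?_⟩
    obtain ⟨h₁, h₁e⟩ := key a
    obtain ⟨h₂, h₂e⟩ := key b
    refine ⟨h₂⁻¹ * h₁, ?_⟩
    rw [mul_smul, h₁e, ← h₂e, inv_smul_smul]
  refine MulAction.IsPreprimitive.of_isTrivialBlock_base c ?_
  intro B hcB hB
  by_cases hsub : B.Subsingleton
  · exact Or.inl hsub
  right
  set yH : H := ⟨y, hyH⟩ with hyHdef
  have hyq : yH ^ q = 1 := Subtype.ext (by
    show y ^ q = 1
    rw [← hord]; exact pow_orderOf_eq_one y)
  have hstab : ∀ m : ℤ, ¬ (q : ℤ) ∣ m → yH ^ m ∈ MulAction.stabilizer H B →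
      yH ∈ MulAction.stabilizer H B := by
    intro m hm hmem
    have hp : Prime (q : ℤ) := Nat.prime_iff_prime_int.mp hq
    have hcop : IsCoprime (q : ℤ) m := hp.coprime_iff_not_dvd.mpr hm
    obtain ⟨a, b, hab⟩ := hcop
    have h1 : (yH ^ m) ^ b = yH := by
      have h2 : yH ^ (a * (q : ℤ) + b * m) = yH := by rw [hab, zpow_one]
      rw [zpow_add, mul_comm a, zpow_mul, zpow_natCast, hyq, one_zpow, one_mul, mul_comm b,
        zpow_mul] at h2
      exact h2
    rw [← h1]
    exact Subgroup.zpow_mem _ hmem b
  have hfix : yH • B = B := by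
    by_contra hne
    have hkey : ∀ (i j : ℕ) (u v : β), i < q → j < q → u ∈ B → v ∈ B →
        (y ^ i) u = (y ^ j) v → i = j := by
      intro i j u v hi hj hu hv huv
      by_contra hij
      apply hne
      have hm : ¬ (q : ℤ) ∣ ((i : ℤ) - j) := by
        intro hdvd
        have := Int.eq_zero_of_abs_lt_dvd hdvd (by rw [abs_lt]; constructor <;> omega)
        omega
      have hmem : yH ^ ((i : ℤ) - j) ∈ MulAction.stabilizer H B := by
        rw [MulAction.mem_stabilizer_iff]
        rcases hB.smul_eq_or_disjoint (yH ^ ((i : ℤ) - j)) with h | h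
        · exact h
        · exfalso
          have hv' : (yH ^ ((i : ℤ) - j)) • u = v := by
            rw [sub_eq_neg_add, zpow_add, zpow_neg, mul_smul, inv_smul_eq_iff, zpow_natCast,
              zpow_natCast]
            exact huv
          exact Set.disjoint_left.mp h (Set.smul_mem_smul_set hu) (hv' ▸ hv)
      exact MulAction.mem_stabilizer_iff.mp (hstab _ hm hmem)
    obtain ⟨d, hdB, hdc⟩ : ∃ d ∈ B, d ≠ c := by
      by_contra hcon
      push Not at hcon
      exact hsub (fun a ha b hb => by rw [hcon a ha, hcon b hb])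
    have hinj : Function.Injective
        (fun p : Fin q × Bool => (y ^ (p.1 : ℕ)) (if p.2 then d else c)) := by
      rintro ⟨i, s⟩ ⟨j, t⟩ h
      simp only at h
      have hu : (if s then d else c) ∈ B := by split_ifs <;> assumption
      have hv : (if t then d else c) ∈ B := by split_ifs <;> assumption
      have hij := hkey i j _ _ i.2 j.2 hu hv h
      have hij' : i = j := Fin.ext hij
      subst hij'
      have h3 := (y ^ (i : ℕ)).injective h
      have hst : s = t := by
        cases s <;> cases t <;> simp_all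
      rw [hst]
    have h4 := Fintype.card_le_of_injective _ hinj
    simp at h4
    omega
  have hsuppB : (y.support : Set β) ⊆ B := by
    intro a ha
    have ha' : y a ≠ a := Equiv.Perm.mem_support.mp (Finset.mem_coe.mp ha)
    obtain ⟨i, hi⟩ := hcyc.exists_pow_eq hc ha'
    have hmem : yH ^ i ∈ MulAction.stabilizer H B :=
      Subgroup.pow_mem _ (MulAction.mem_stabilizer_iff.mpr hfix) i
    have h5 : (yH ^ i) • c ∈ (yH ^ i) • B := Set.smul_mem_smul_set hcB
    rw [MulAction.mem_stabilizer_iff.mp hmem] at h5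
    have h6 : (yH ^ i) • c = a := hi
    rwa [h6] at h5
  have hle : q ≤ B.ncard := by
    have := Set.ncard_le_ncard hsuppB (Set.toFinite B)
    rwa [Set.ncard_coe_finset, hsupp] at this
  apply hB.eq_univ_of_card_lt
  rw [Nat.card_eq_fintype_card]
  omega

end Cfsg.Agent.Lib.Helper97.APQ
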