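import Mathlib
import Cfsg.Agent.Lib.Helper69.APQ.Defs

/-!
# APQ (S4150), package [T13K3]

The order of a `2`-transitive group: `|G| = n (n - 1) |G_{a,b}|` (orbit-stabiliser on pairs).
-/

set_option autoImplicit false

namespace Cfsg.Agent.Lib.Helper97.APQ

open Equiv Cfsg.Agent.Lib.Helper69.APQ

universe u

theorem pkgT13K3 : PkgT13K3.{u} := by
  intro β _ _ G h2 a b hab
  classical
  have hstab : MulAction.stabilizer G ((a, b) : β × β) = Stab2 G a b := by
    ext g
    simp [Stab2, MulAction.mem_stabilizer_iff]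
  have horb : MulAction.orbit G ((a, b) : β × β) = {p : β × β | p.1 ≠ p.2} := by
    ext ⟨c, d⟩
    constructor
    · rintro ⟨g, hg⟩
      simp only [Prod.smul_mk, Prod.mk.injEq] at hg
      obtain ⟨rfl, rfl⟩ := hg
      exact fun h => hab (smul_left_cancel g h)
    · intro hcd
      obtain ⟨g, hg1, hg2⟩ := MulAction.is_two_pretransitive_iff.mp h2 hab hcd
      exact ⟨g, by simp [hg1, hg2]⟩
  have h1 := MulAction.index_stabilizer (G := G) ((a, b) : β × β)
  rw [hstab, horb] at h1
  have h3 : ({p : β × β | p.1 ≠ p.2} : Set (β × β)).ncard =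
      Fintype.card β * (Fintype.card β - 1) := by
    have h4 : ({p : β × β | p.1 ≠ p.2} : Set (β × β)) =
        ((Finset.univ : Finset β).offDiag : Set (β × β)) := by
      ext p; simp
    rw [h4, Set.ncard_coe_finset, Finset.offDiag_card, Finset.card_univ, Nat.mul_sub_one]
  rw [← Subgroup.index_mul_card (Stab2 G a b), h1, h3]

end Cfsg.Agent.Lib.Helper97.APQ
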